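import Cfsg.Agent.H857.Classify
import Cfsg.Agent.H857.Orbits
import Cfsg.Agent.J4Type.DuadUniq
import Cfsg.Agent.H860.JM.Cj

/-!
# J₄: the group `F_w` of an involution `w` of `N(E)` outside `E` (helper752)

For `n : NE F` inducing an involution `σ` on the 24 points: the elements `ε {x, σ x} * ε {y, σ y}`.
-/

set_option autoImplicit false

open scoped Pointwise

namespace Cfsg.Agent.H752.JM

open Cfsg Cfsg.Agent.SporadicA.GolayBase Cfsg.Agent.SporadicA.OctadFix
open Cfsg.Agent.J4Type Cfsg.Agent.J4Type.CocodeMask Cfsg.Agent.J4Type.CloseInst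
open Cfsg.Agent.J4Type.CocodeAct Cfsg.Agent.J4Type.TauM24 Cfsg.Agent.J4Type.TauMask
open Cfsg.Agent.J4Type.FrameDefs (NE)
open Cfsg.Agent.H857.Fix Cfsg.Agent.H857.WGrp Cfsg.Agent.H860.JM

variable {G : Type*} [Group G]

section

variable {F : Frame G}

theorem pair_swap {x y x' y' : GolayPt} (h1 : x ≠ y) (h2 : x' ≠ y') (h3 : x ≠ x') (h4 : y ≠ y') :
    F.ε {x, y} * F.ε {x', y'} = F.ε {x, x'} * F.ε {y, y'} := by
  rw [← c_du h1, ← c_du h2, ← c_du h3, ← c_du h4, ← c_xor F (ev_du _ _) (ev_du _ _),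
    ← c_xor F (ev_du _ _) (ev_du _ _)]
  congr 2
  simp only [du]
  ac_rfl

theorem pair_sq {x y : GolayPt} (h : x ≠ y) : F.ε {x, y} * F.ε {x, y} = 1 :=
  FrameDefs.ε_sq F (even_pair' h)

theorem pair_inv {x y : GolayPt} (h : x ≠ y) : (F.ε {x, y})⁻¹ = F.ε {x, y} :=
  inv_eq_of_mul_eq_one_left (pair_sq h)

theorem pair_mem {x y : GolayPt} (h : x ≠ y) : F.ε {x, y} ∈ F.E hex0 := F.ε_mem _ (even_pair' h)

/-- the permutation of the points -/
abbrev sg (n : NE F) : Equiv.Perm GolayPt := (F.π n : Equiv.Perm GolayPt)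

theorem conj_pair (n : NE F) {x y : GolayPt} (h : x ≠ y) :
    (n : G) * F.ε {x, y} * (n : G)⁻¹ = F.ε {sg n x, sg n y} := by
  have h1 := F.π_smul n {x, y} (even_pair' h)
  rw [DuadM24.smul_pair] at h1
  exact h1

/-- the element `ε {x, σ x} * ε {y, σ y}` -/
def dd (n : NE F) (x y : GolayPt) : G := F.ε {x, sg n x} * F.ε {y, sg n y}

theorem dd_mem {n : NE F} {x y : GolayPt} (hx : sg n x ≠ x) (hy : sg n y ≠ y) :
    dd n x y ∈ F.E hex0 := (F.E hex0).mul_mem (pair_mem hx.symm) (pair_mem hy.symm)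

/-- `v w` is a conjugate of `w` -/
theorem dd_conj {n : NE F} {x y : GolayPt} (hxy : x ≠ y) (hx : sg n x ≠ x) (hy : sg n y ≠ y) :
    dd n x y * n = F.ε {x, y} * n * (F.ε {x, y})⁻¹ := by
  have h1 := conj_pair n hxy
  have h2 : sg n x ≠ sg n y := fun h => hxy ((sg n).injective h)
  rw [dd, ← pair_swap hxy h2 hx.symm hy.symm, ← h1, pair_inv hxy]
  group

theorem dd_comm {n : NE F} (hn : F.π n * F.π n = 1) {x y : GolayPt} (hx : sg n x ≠ x)
    (hy : sg n y ≠ y) : dd n x y * n = n * dd n x y := by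
  have hs : ∀ p, sg n (sg n p) = p := fun p => by
    have := congrArg Subtype.val hn
    show (sg n * sg n) p = p
    rw [show sg n * sg n = 1 from this]; rfl
  have h1 := comm_duad (F := F) (n := n) hx.symm rfl (hs x)
  have h2 := comm_duad (F := F) (n := n) hy.symm rfl (hs y)
  rw [dd, mul_assoc, ← h2, ← mul_assoc, ← h1, mul_assoc]

theorem sg_sg {n : NE F} (hn : F.π n * F.π n = 1) (p : GolayPt) : sg n (sg n p) = p := by
  have := congrArg Subtype.val hn
  show (sg n * sg n) p = p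
  rw [show sg n * sg n = 1 from this]; rfl

theorem dd_self {n : NE F} {x : GolayPt} (hx : sg n x ≠ x) : dd n x x = 1 := pair_sq hx.symm

theorem dd_sg {n : NE F} (hn : F.π n * F.π n = 1) {x : GolayPt} (hx : sg n x ≠ x) :
    dd n x (sg n x) = 1 := by
  rw [dd, sg_sg hn, Finset.pair_comm (sg n x) x]
  exact pair_sq hx.symm

theorem dd_mul {n : NE F} {x y z : GolayPt} (hx : sg n x ≠ x) (hy : sg n y ≠ y) :
    dd n x y * dd n x z = dd n y z := by
  have h1 := (F.E_elem hex0 HexMax.hex0_isHex).2 _ (pair_mem (F := F) hx.symm) _ (pair_mem (F := F) hy.symm)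
  have h2 := pair_sq (F := F) hx.symm
  rw [dd, dd, dd, h1]
  calc F.ε {y, sg n y} * F.ε {x, sg n x} * (F.ε {x, sg n x} * F.ε {z, sg n z}) =
      F.ε {y, sg n y} * (F.ε {x, sg n x} * F.ε {x, sg n x}) * F.ε {z, sg n z} := by group
    _ = _ := by rw [h2, mul_one]

/-- the 4-set -/
theorem dd_eq_four {n : NE F} (hn : F.π n * F.π n = 1) {x y : GolayPt} (hx : sg n x ≠ x)
    (hy : sg n y ≠ y) (h1 : y ≠ x) (h2 : y ≠ sg n x) :
    ({x, sg n x, y, sg n y} : Finset GolayPt).card = 4 ∧ dd n x y = F.ε {x, sg n x, y, sg n y} := by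
  have h3 : sg n y ≠ sg n x := fun h => h1 ((sg n).injective h)
  have h4 : sg n y ≠ x := fun h => h2 (by rw [← h, sg_sg hn])
  have h5 : symmDiff ({x, sg n x} : Finset GolayPt) {y, sg n y} = {x, sg n x, y, sg n y} := by
    ext p
    simp only [Finset.mem_symmDiff, Finset.mem_insert, Finset.mem_singleton]
    constructor
    · rintro (⟨h, -⟩ | ⟨h, -⟩)
      · rcases h with h | h
        · exact Or.inl h
        · exact Or.inr (Or.inl h)
      · exact Or.inr (Or.inr h)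
    · rintro (rfl | rfl | rfl | rfl)
      · exact Or.inl ⟨Or.inl rfl, fun h => h.elim (fun h => h1 h.symm) (fun h => h4 h.symm)⟩
      · exact Or.inl ⟨Or.inr rfl, fun h => h.elim (fun h => h2 h.symm) (fun h => h3 h.symm)⟩
      · exact Or.inr ⟨Or.inl rfl, fun h => h.elim h1 h2⟩
      · exact Or.inr ⟨Or.inr rfl, fun h => h.elim h4 h3⟩
  have h6 := DuadM24.card_four hx.symm h1.symm h4.symm h2.symm h3.symm hy.symm
  rw [h5] at h6
  refine ⟨h6, ?_⟩
  rw [dd, ← F.ε_mul _ _ (even_pair' hx.symm) (even_pair' hy.symm), h5]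

theorem dd_conj_z {n : NE F} (hn : F.π n * F.π n = 1) {x y : GolayPt} (hx : sg n x ≠ x)
    (hy : sg n y ≠ y) (h1 : y ≠ x) (h2 : y ≠ sg n x) : IsConj F.z (dd n x y) := by
  obtain ⟨h3, h4⟩ := dd_eq_four hn hx hy h1 h2
  rw [h4]
  exact DuadCent.isConj_four F h3

theorem dd_ne_one {n : NE F} (hn : F.π n * F.π n = 1) {x y : GolayPt} (hx : sg n x ≠ x)
    (hy : sg n y ≠ y) (h1 : y ≠ x) (h2 : y ≠ sg n x) : dd n x y ≠ 1 := by
  intro h
  have h3 := dd_conj_z hn hx hy h1 h2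
  rw [h] at h3
  exact z_ne_one F (isConj_one_left.1 h3)

theorem dd_eq_iff {n : NE F} (hn : F.π n * F.π n = 1) {x y z : GolayPt} (hx : sg n x ≠ x)
    (hy : sg n y ≠ y) (hz : sg n z ≠ z) (h : dd n x y = dd n x z) : z = y ∨ z = sg n y := by
  by_contra hno
  rw [not_or] at hno
  apply dd_ne_one hn hy hz hno.1 hno.2
  rw [← dd_mul hx hy, h, dd_mul hx hz, dd_self hz]

end

/-! ### `F_w` -/

section

variable {F : Frame G} {Γ : Geom G}

/-- the elements `v` are in `F_w` -/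
theorem dd_mem_Fs (hA : ∀ u, Γ.A u ↔ IsConj F.z u) {n : NE F} (hn : F.π n * F.π n = 1)
    (hnA : Γ.A (n : G)) {x y : GolayPt} (hx : sg n x ≠ x) (hy : sg n y ≠ y) :
    dd n x y ∈ Fs Γ (F.E hex0) (n : G) := by
  refine ⟨dd_mem hx hy, dd_comm hn hx hy, ?_⟩
  by_cases h1 : y = x
  · subst h1; exact Or.inl (dd_self hx)
  by_cases h2 : y = sg n x
  · subst h2; exact Or.inl (dd_sg hn hx)
  right
  rw [hA, hA, dd_conj (Ne.symm h1) hx hy]
  rw [hA] at hnA
  exact ⟨dd_conj_z hn hx hy h1 h2, hnA.trans (isConj_iff.2 ⟨_, rfl⟩)⟩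

/-- the fixed points of `σ` form an octad, and `F_w` is the set of the elements `v` -/
theorem Fs_eq [Finite G] (hA : ∀ u, Γ.A u ↔ IsConj F.z u) {n : NE F} (hn : F.π n * F.π n = 1)
    (hn1 : F.π n ≠ 1) (hnA : Γ.A (n : G)) (h8 : (Fs Γ (F.E hex0) (n : G)).ncard = 8) :
    ∃ O ∈ octads, (∀ p, sg n p = p ↔ p ∈ O) ∧ sg n ∈ fixOct O ∧
      ∀ x, x ∉ O → ∀ v, v ∈ Fs Γ (F.E hex0) (n : G) ↔ ∃ y, y ∉ O ∧ v = dd n x y := by
  classical
  set M : Finset GolayPt := Finset.univ.filter fun p => sg n p ≠ p with hM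
  have hmemM : ∀ p, p ∈ M ↔ sg n p ≠ p := fun p => by rw [hM, Finset.mem_filter]; simp
  -- counting
  have key : ∀ x, x ∈ M → M.card ≤ 2 * (M.image (dd n x)).card := by
    intro x hx
    rw [hmemM] at hx
    refine (Finset.card_le_mul_card_image M 2 ?_)
    intro b hb
    obtain ⟨y, hy, rfl⟩ := Finset.mem_image.1 hb
    rw [hmemM] at hy
    refine (Finset.card_le_card (t := {y, sg n y}) ?_).trans (Finset.card_le_two)
    intro z hz
    rw [Finset.mem_filter, hmemM] at hz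
    rw [Finset.mem_insert, Finset.mem_singleton]
    exact dd_eq_iff hn hx hy hz.1 hz.2.symm
  have hsub : ∀ x, x ∈ M → ((M.image (dd n x) : Finset G) : Set G) ⊆ Fs Γ (F.E hex0) (n : G) := by
    intro x hx v hv
    rw [Finset.mem_coe, Finset.mem_image] at hv
    obtain ⟨y, hy, rfl⟩ := hv
    rw [hmemM] at hx hy
    exact dd_mem_Fs hA hn hnA hx hy
  have hle : ∀ x, x ∈ M → (M.image (dd n x)).card ≤ 8 := by
    intro x hx
    rw [← h8, ← Set.ncard_coe_finset]
    exact Set.ncard_le_ncard (hsub x hx) (Set.toFinite _)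
  have hsg : sg n ∈ M24 := (F.π n).2
  have hsq : sg n * sg n = 1 := congrArg Subtype.val hn
  have hsg1 : sg n ≠ 1 := fun h => hn1 (Subtype.ext h)
  obtain ⟨p0, hp0⟩ : ∃ p, sg n p = p := by
    by_contra hno
    push Not at hno
    have h1 := key none ((hmemM _).2 (hno _))
    have h2 := hle none ((hmemM _).2 (hno _))
    have h3 : M = Finset.univ := Finset.eq_univ_of_forall fun p => (hmemM p).2 (hno p)
    rw [h3, Finset.card_univ, HexMax.card24] at h1
    rw [h3] at h2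
    omega
  have hO := H857.Classify.fix_octad hsg hsq hsg1 hp0
  set O : Finset GolayPt := Finset.univ.filter fun p : GolayPt => sg n p = p with hOd
  have hmemO : ∀ p, sg n p = p ↔ p ∈ O := fun p => by rw [hOd, Finset.mem_filter]; simp
  have hMO : ∀ p, p ∈ M ↔ p ∉ O := fun p => by rw [hmemM, Ne, hmemO]
  have hMcard : M.card = 16 := by
    have h1 : M = Finset.univ \ O := by
      ext p
      rw [hMO, Finset.mem_sdiff]
      simp
    rw [h1, Finset.card_sdiff_of_subset (Finset.subset_univ _), Finset.card_univ, HexMax.card24,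
      octad_card hO]
  refine ⟨O, hO, hmemO, mem_fixOct.2 ⟨hsg, fun x hx => (hmemO x).2 hx⟩, fun x hx v => ?_⟩
  rw [← hMO] at hx
  have h1 := key x hx
  have h2 : ((M.image (dd n x) : Finset G) : Set G) = Fs Γ (F.E hex0) (n : G) := by
    apply Set.eq_of_subset_of_ncard_le (hsub x hx) _ (Set.toFinite _)
    rw [h8, Set.ncard_coe_finset]
    omega
  rw [← h2, Finset.mem_coe, Finset.mem_image]
  constructor
  · rintro ⟨y, hy, rfl⟩
    exact ⟨y, (hMO y).1 hy, rfl⟩
  · rintro ⟨y, hy, rfl⟩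
    exact ⟨y, (hMO y).2 hy, rfl⟩

/-- `F_w ≤ W(O)` -/
theorem Fs_le_WG {n : NE F} {O : Finset GolayPt} (hO : O ∈ octads) (hmem : ∀ p, sg n p = p ↔ p ∈ O)
    (hn : F.π n * F.π n = 1) (hn1 : F.π n ≠ 1) (hu : sg n ∈ fixOct O) {x y : GolayPt} (hx : x ∉ O)
    (hy : y ∉ O) : dd n x y ∈ WG F O := by
  have hx' : sg n x ≠ x := fun h => hx ((hmem x).1 h)
  have hy' : sg n y ≠ y := fun h => hy ((hmem y).1 h)
  have hsy : sg n y ∉ O := fun h => hy' (by
    have h1 := (hmem _).2 h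
    exact (sg n).injective h1)
  rcases cases_of_comm hO hu hn1 hx (dd_mem hx' hy') (dd_comm hn hx' hy').symm with h | h
  · exact h
  · exfalso
    have h1 : dd n x y * F.ε {x, sg n x} = F.ε {y, sg n y} := by
      rw [dd, (F.E_elem hex0 HexMax.hex0_isHex).2 _ (pair_mem (F := F) hx'.symm) _
        (pair_mem (F := F) hy'.symm), mul_assoc, pair_sq hx'.symm, mul_one]
    rw [h1] at h
    exact duad_not_mem_WG hO hy hsy hy'.symm h

end

end Cfsg.Agent.H752.JM
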