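import Cfsg.Agent.H752.JM.Duads

/-!
# J₄: `F_w` is not contained in a second conjugate of `E` (helper752)
-/

set_option autoImplicit false

open scoped Pointwise

namespace Cfsg.Agent.H752.JM

open Cfsg Cfsg.Agent.SporadicA.GolayBase Cfsg.Agent.SporadicA.OctadFix
open Cfsg.Agent.J4Type Cfsg.Agent.J4Type.CloseInst
open Cfsg.Agent.J4Type.FrameDefs (NE)
open Cfsg.Agent.H857.WGrp Cfsg.Agent.H860.JM

variable {G : Type*} [Group G] {F : Frame G}

theorem tet_cov : ∀ x : GolayPt, ∃ i, x ∈ tet i := by decide +kernel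

theorem mog_mem (i : Fin 6) : mog i 0 ∈ tet i := Finset.mem_image_of_mem _ (Finset.mem_univ _)

theorem tet_even : ∀ i : Fin 6, ∀ x ∈ tet i, x ≠ mog i 0 → ∀ j : Fin 6,
    Even (({mog i 0, x} : Finset GolayPt) ∩ tet j).card := by decide +kernel

/-- `ρ` as an element of the normalizer of `E` -/
def rh (F : Frame G) : NE F := ⟨F.ρ, FrameDefs.ρ_norm F.toHex⟩

theorem rho_move {i : Fin 6} {x : GolayPt} (hx : x ∈ tet i) (h0 : x ≠ mog i 0) :
    sg (rh F) x ≠ x := by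
  intro h
  have hb := (F.ρ_tet (rh F) rfl i).1
  have h1 := conj_pair (rh F) (Ne.symm h0)
  rw [show sg (rh F) (mog i 0) = mog i 0 from hb, h] at h1
  have hQ : F.ε {mog i 0, x} ∈ F.Q :=
    (F.A_iff _ (even_pair' (Ne.symm h0))).2 (Or.inl fun j => tet_even i x hx h0 j)
  rcases F.ρ_fix _ hQ (mul_inv_eq_iff_eq_mul.1 h1) with h2 | h2
  · exact DuadUniq.duad_ne_one F (Ne.symm h0) h2
  · exact DuadUniq.duad_ne_z F (Ne.symm h0) h2

/-- a product of two disjoint duads is not a duad -/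
theorem four_ne_duad {a b c d p q : GolayPt} (hab : a ≠ b) (hac : a ≠ c) (had : a ≠ d) (hbc : b ≠ c)
    (hbd : b ≠ d) (hcd : c ≠ d) (hpq : p ≠ q) : F.ε {a, b} * F.ε {c, d} ≠ F.ε {p, q} := by
  intro h
  rw [← F.ε_mul _ _ (even_pair' hab) (even_pair' hcd)] at h
  have h1 := DuadCent.isConj_four F (DuadM24.card_four hab hac had hbc hbd hcd)
  rw [h] at h1
  exact F.duad_not_conj p q hpq h1

theorem exists_notMem {T : Finset GolayPt} (h : T.card < 24) : ∃ q, q ∉ T := by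
  obtain ⟨x, -, hx⟩ := Finset.exists_mem_notMem_of_card_lt_card
    (s := T) (t := Finset.univ) (by rw [Finset.card_univ, HexMax.card24]; exact h)
  exact ⟨x, hx⟩

/-- `F_w` is not contained in a second conjugate of `E` -/
theorem not_sub [Finite G] {n : NE F} (hn : F.π n * F.π n = 1) {O : Finset GolayPt}
    (hO : O ∈ octads) (hmem : ∀ p, sg n p = p ↔ p ∈ O) {S : Set G}
    (hS : ∀ x, x ∉ O → ∀ v, v ∈ S ↔ ∃ y, y ∉ O ∧ v = dd n x y) (hS8 : S.ncard = 8) {g : G}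
    (hcard : Nat.card (F.E hex0 ⊓ cj g (F.E hex0) : Subgroup G) ≤ 8)
    (hsub : ∀ v ∈ S, v ∈ cj g (F.E hex0)) : False := by
  classical
  have hO8 := octad_card hO
  obtain ⟨x0, hx0⟩ := exists_notMem (T := O) (by omega)
  have hmv : ∀ x, x ∉ O → sg n x ≠ x := fun x hx h => hx ((hmem x).1 h)
  have hmv' : ∀ x, sg n x ≠ x → x ∉ O := fun x hx h => hx ((hmem x).2 h)
  have hsO : ∀ x, x ∉ O → sg n x ∉ O := fun x hx h => hmv x hx ((sg n).injective ((hmem _).2 h))
  obtain ⟨y0, hy0⟩ := exists_notMem (T := O ∪ {x0, sg n x0}) (by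
    have h1 := Finset.card_union_le O {x0, sg n x0}
    have h2 := Finset.card_le_two (a := x0) (b := sg n x0)
    omega)
  rw [Finset.mem_union, Finset.mem_insert, Finset.mem_singleton, not_or, not_or] at hy0
  obtain ⟨hy0, hyx, hysx⟩ := hy0
  obtain ⟨hT4, hT⟩ := dd_eq_four hn (hmv x0 hx0) (hmv y0 hy0) hyx hysx
  set T : Finset GolayPt := {x0, sg n x0, y0, sg n y0} with hTd
  have hTO : ∀ p ∈ T, p ∉ O := by
    intro p hp
    rw [hTd] at hp
    simp only [Finset.mem_insert, Finset.mem_singleton] at hp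
    rcases hp with rfl | rfl | rfl | rfl
    · exact hx0
    · exact hsO _ hx0
    · exact hy0
    · exact hsO _ hy0
  have hTs : ∀ p ∈ T, sg n p ∈ T := by
    intro p hp
    rw [hTd] at hp ⊢
    simp only [Finset.mem_insert, Finset.mem_singleton] at hp ⊢
    rcases hp with rfl | rfl | rfl | rfl
    · exact Or.inr (Or.inl rfl)
    · exact Or.inl (sg_sg hn _)
    · exact Or.inr (Or.inr (Or.inr rfl))
    · exact Or.inr (Or.inr (Or.inl (sg_sg hn _)))
  -- `S = E ∩ gEg⁻¹`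
  have hSE : S ⊆ ((F.E hex0 ⊓ cj g (F.E hex0) : Subgroup G) : Set G) := by
    intro v hv
    refine ⟨?_, hsub v hv⟩
    obtain ⟨y, hy, rfl⟩ := (hS x0 hx0 v).1 hv
    exact dd_mem (hmv _ hx0) (hmv _ hy)
  have hSeq : S = ((F.E hex0 ⊓ cj g (F.E hex0) : Subgroup G) : Set G) := by
    apply Set.eq_of_subset_of_ncard_le hSE _ (Set.toFinite _)
    rw [hS8]
    exact hcard
  have hv0 : dd n x0 y0 ∈ S := (hS x0 hx0 _).2 ⟨y0, hy0, rfl⟩
  obtain ⟨n0, hn0, hnz⟩ := conj_sextet F T hT4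
  rw [← hT] at hnz
  obtain ⟨O', hO', hiff⟩ := F.E_unique (n0⁻¹ * g) (by
    have h1 := mem_cj.1 (hsub _ hv0)
    have h2 : (n0⁻¹ * g)⁻¹ * F.z * (n0⁻¹ * g) = g⁻¹ * (n0 * F.z * n0⁻¹) * g := by group
    rw [h2, hnz]
    exact h1)
  set m : NE F := ⟨n0, hn0⟩ with hm
  set r : NE F := m * rh F * m⁻¹ with hr
  have hrS : ∀ v ∈ S, (r : G) * v * (r : G)⁻¹ ∈ S := by
    intro v hv
    rw [hSeq] at hv ⊢
    refine ⟨((Subgroup.mem_normalizer_iff.1 r.2) v).1 hv.1, mem_cj.2 ?_⟩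
    have h1 := mem_cj.1 hv.2
    have h2 : g⁻¹ * v * g = (n0⁻¹ * g)⁻¹ * (n0⁻¹ * v * n0) * (n0⁻¹ * g) := by group
    rw [h2, hiff, FrameDefs.ρ_E F.toHex hO', ← hiff] at h1
    have h3 : g⁻¹ * ((r : G) * v * (r : G)⁻¹) * g =
        (n0⁻¹ * g)⁻¹ * (F.ρ * (n0⁻¹ * v * n0) * F.ρ⁻¹) * (n0⁻¹ * g) := by
      show g⁻¹ * ((n0 * F.ρ * n0⁻¹) * v * (n0 * F.ρ * n0⁻¹)⁻¹) * g = _
      group
    rw [h3]
    exact h1
  have hτ : ∀ p, sg r (sg m p) = sg m (sg (rh F) p) := by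
    intro p
    have h1 : sg r = sg m * sg (rh F) * (sg m)⁻¹ := by
      show ((F.π (m * rh F * m⁻¹) : M24) : Equiv.Perm GolayPt) = _
      rw [map_mul, map_mul, map_inv]
      rfl
    rw [h1]
    show sg m (sg (rh F) ((sg m)⁻¹ (sg m p))) = _
    have h2 : (sg m)⁻¹ (sg m p) = p := (sg m).symm_apply_apply p
    rw [h2]
  -- the tetrad
  obtain ⟨i, hi⟩ := tet_cov ((sg m)⁻¹ x0)
  have hTi : sg m • tet i = T := by
    have h1 : F.ε (sg m • tet i) = F.ε T := by
      rw [← hT, ← hnz, ← F.ε_tet i]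
      exact (F.π_smul m (tet i) (by rw [tet_card]; decide)).symm
    have hx : x0 ∈ sg m • tet i := by
      have h2 : sg m • ((sg m)⁻¹ x0) ∈ sg m • tet i := Finset.smul_mem_smul_finset hi
      have h3 : sg m • ((sg m)⁻¹ x0) = x0 := (sg m).apply_symm_apply x0
      rwa [h3] at h2
    have hx' : x0 ∈ T := Finset.mem_insert_self _ _
    have h3 : (sg m • tet i).card = 4 := by rw [Finset.card_smul_finset, tet_card]
    apply DuadUniq.ε_inj F (by rw [h3]; decide) (by rw [hT4]; decide) _ h1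
    have h4 : symmDiff (sg m • tet i) T ⊆ ((sg m • tet i).erase x0) ∪ (T.erase x0) := by
      intro y hy
      rw [Finset.mem_symmDiff] at hy
      rw [Finset.mem_union, Finset.mem_erase, Finset.mem_erase]
      rcases hy with ⟨h5, h6⟩ | ⟨h5, h6⟩
      · exact Or.inl ⟨fun h => h6 (h ▸ hx'), h5⟩
      · exact Or.inr ⟨fun h => h6 (h ▸ hx), h5⟩
    have h5 := Finset.card_le_card h4
    have h6 := Finset.card_union_le ((sg m • tet i).erase x0) (T.erase x0)
    rw [Finset.card_erase_of_mem hx, Finset.card_erase_of_mem hx', h3, hT4] at h6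
    omega
  set a := sg m (mog i 0) with ha
  have haT : a ∈ T := by rw [← hTi]; exact Finset.smul_mem_smul_finset (mog_mem i)
  have haO := hTO a haT
  have hτa : sg r a = a := by rw [ha, hτ, (F.ρ_tet (rh F) rfl i).1]
  set b := sg n a with hb
  have hbT : b ∈ T := hTs a haT
  have hab : b ≠ a := hmv a haO
  have hτT : ∀ p, p ∈ T → sg r p ∈ T := by
    intro p hp
    rw [← hTi] at hp ⊢
    obtain ⟨y, hy, rfl⟩ := Finset.mem_smul_finset.1 hp
    show sg r (sg m y) ∈ _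
    rw [hτ]
    apply Finset.smul_mem_smul_finset
    have h1 : sg (rh F) • tet i = tet i := (F.ρ_tet (rh F) rfl i).2
    rw [← h1]
    exact Finset.smul_mem_smul_finset hy
  have hτT' : ∀ p, p ∉ T → sg r p ∉ T := by
    intro p hp h
    have h1 : sg r • T = T := H857.Classify.smul_eq_of_mapsTo hτT
    rw [← h1] at h
    obtain ⟨y, hy, hyp⟩ := Finset.mem_smul_finset.1 h
    exact hp ((sg r).injective hyp ▸ hy)
  have hτb : sg r b ≠ b := by
    have h1 := hbT
    rw [← hTi] at h1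
    obtain ⟨y, hy, hyb⟩ := Finset.mem_smul_finset.1 h1
    have hyb' : sg m y = b := hyb
    rw [← hyb', hτ]
    intro h
    refine rho_move hy ?_ ((sg m).injective h)
    rintro rfl
    exact hab hyb'.symm
  obtain ⟨q, hq⟩ := exists_notMem (T := O ∪ T) (by
    have h1 := Finset.card_union_le O T
    omega)
  rw [Finset.mem_union, not_or] at hq
  have hvq : dd n a q ∈ S := (hS a haO _).2 ⟨q, hq.1, rfl⟩
  obtain ⟨q', hq', h1⟩ := (hS a haO _).1 (hrS _ hvq)
  have hqq := hmv q hq.1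
  have h2 : (r : G) * dd n a q * (r : G)⁻¹ = F.ε {a, sg r b} * F.ε {sg r q, sg r (sg n q)} := by
    have h3 : (r : G) * dd n a q * (r : G)⁻¹ = ((r : G) * F.ε {a, b} * (r : G)⁻¹) *
        ((r : G) * F.ε {q, sg n q} * (r : G)⁻¹) := by
      rw [dd, ← hb]; group
    rw [h3, conj_pair r hab.symm, conj_pair r hqq.symm, hτa]
  rw [h2, dd, ← hb] at h1
  have hq2 := hmv q' hq'
  have hτab : sg r b ≠ a := fun h => hab ((sg r).injective (h.trans hτa.symm))
  have h3 : F.ε {sg r b, b} * F.ε {sg r q, sg r (sg n q)} = F.ε {q', sg n q'} := by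
    have h4 := ε_pair_mul (F := F) hτab.symm hab.symm hτb
    have h5 := (F.E_elem hex0 HexMax.hex0_isHex).2 _ (pair_mem (F := F) hτab.symm) _
      (pair_mem (F := F) hab.symm)
    have h6 := pair_sq (F := F) hab.symm
    rw [← h4, h5, mul_assoc, h1, ← mul_assoc, h6, one_mul]
  have hnqT : sg n q ∉ T := fun h => hq.2 (by
    have h7 := hTs _ h
    rwa [sg_sg hn] at h7)
  have hTr : ∀ x y, x ∈ T → y ∉ T → x ≠ y := fun x y hx hy h => hy (h ▸ hx)
  refine four_ne_duad hτb ?_ ?_ ?_ ?_ ?_ hq2.symm h3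
  · exact hTr _ _ (hτT _ hbT) (hτT' _ hq.2)
  · exact hTr _ _ (hτT _ hbT) (hτT' _ hnqT)
  · exact hTr _ _ hbT (hτT' _ hq.2)
  · exact hTr _ _ hbT (hτT' _ hnqT)
  · exact fun h => hqq ((sg r).injective h).symm

end Cfsg.Agent.H752.JM
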