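import Cfsg.Agent.H752.JM.TwelveOf
import Cfsg.Agent.H796.JM.Base
import Cfsg.Agent.H68.JM.F5
import Cfsg.Agent.H825.JM.Lines

/-!
# J₄: the fact `F12` for `Spor.J4` (helper752)
-/

set_option autoImplicit false

open scoped Pointwise

namespace Cfsg.Agent.H752.JM

open Cfsg Cfsg.Agent.J4Type Cfsg.Agent.H860.JM Cfsg.Agent.H796.JM

/-- the group `Spor.J4` -/
local notation "𝒢" => Cfsg.Spor.J4

theorem IsX.cj' {G : Type*} [Group G] [Finite G] {X : Subgroup G} (h : IsX X) (g : G) :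
    IsX (cj g X) := by
  rw [cj_eq]
  exact h.smul g

theorem hyp {C : J4Type.Compl 𝒢} (L : Link C) : Hyp geo C.toFrame := by
  have := simple_J
  have := finite_J
  have hPt : ∀ P : Subgroup 𝒢, geo.Pt P ↔ ∃ g, P = cj g (C.E hex0) := by
    intro P
    rw [L.Pt]
    simp only [cj_eq]
  have hcj : ∀ (g : 𝒢) (X : Subgroup 𝒢), cj g (cj g⁻¹ X) = X := cj_inv
  have hcj' : ∀ (g : 𝒢) (X : Subgroup 𝒢), cj g⁻¹ (cj g X) = X := by
    intro g X
    have h := cj_inv g⁻¹ X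
    rwa [inv_inv] at h
  have hle : ∀ (g : 𝒢) (X : Subgroup 𝒢), X ≤ Subgroup.normalizer (cj g (C.E hex0) : Set 𝒢) ↔
      cj g⁻¹ X ≤ Subgroup.normalizer (C.E hex0 : Set 𝒢) := by
    intro g X
    rw [normalizer_cj]
    constructor
    · intro h x hx
      have h1 := mem_cj.1 (h (mem_cj.1 hx))
      have h2 : g⁻¹ * (g⁻¹⁻¹ * x * g⁻¹) * g = x := by group
      rwa [h2] at h1
    · intro h x hx
      refine mem_cj.2 (h (mem_cj.2 ?_))
      have h2 : g⁻¹⁻¹ * (g⁻¹ * x * g) * g⁻¹ = x := by group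
      rwa [h2]
  have hcard : ∀ (g : 𝒢) (X : Subgroup 𝒢), Nat.card (cj g (C.E hex0) ⊓ X : Subgroup 𝒢) =
      Nat.card (cj g⁻¹ X ⊓ C.E hex0 : Subgroup 𝒢) := by
    intro g X
    rw [← card_cj g (cj g⁻¹ X ⊓ C.E hex0), cj_inf, hcj, inf_comm]
  refine ⟨L.A, hPt, f1, Cfsg.Agent.H68.JM.f5, Cfsg.Agent.H825.JM.f6 Cfsg.Agent.H68.JM.f5, ?_, ?_,
    ?_, ?_, ?_⟩
  · intro X hX
    have h1 := (xc_iff.1 hX).el
    exact ⟨h1.1, h1.2⟩
  · intro X P hX hP h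
    obtain ⟨g, rfl⟩ := (hPt P).1 hP
    rw [hle]
    apply le_norm C (IsX.cj' (xc_iff.1 hX) _)
    rw [← hcard, h]
  · intro X P hX hP h
    obtain ⟨g, rfl⟩ := (hPt P).1 hP
    rw [hcard]
    exact card_inf_E C (IsX.cj' (xc_iff.1 hX) _) ((hle g X).1 h)
  · intro X X' P w hX hX' hP h h' hw hw' hwP
    obtain ⟨g, rfl⟩ := (hPt P).1 hP
    have hm : ∀ Y : Subgroup 𝒢, w ∈ Y → g⁻¹ * w * g ∈ cj g⁻¹ Y := by
      intro Y hY
      refine mem_cj.2 ?_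
      have h2 : g⁻¹⁻¹ * (g⁻¹ * w * g) * g⁻¹ = w := by group
      rwa [h2]
    have h1 := eq_of_mem C (IsX.cj' (xc_iff.1 hX) g⁻¹) (IsX.cj' (xc_iff.1 hX') g⁻¹) ((hle g X).1 h)
      ((hle g X').1 h') (hm X hw) (hm X' hw') (fun h2 => hwP (mem_cj.2 h2))
    rw [← hcj g X, h1, hcj]
  · intro O hO n hn hnn hfix
    have hn1 : C.π n ≠ 1 := fun h => hn ((C.π_ker n).1 h)
    obtain ⟨X, hX, hw, -, -, hW⟩ := exists_X C hO n.2 hnn hfix hn1
    refine ⟨X, xc_iff.2 hX, hw, ?_⟩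
    rw [← hW]
    exact inf_le_left

/-- **the fact F12** -/
theorem f12 : F12 geo := by
  have := finite_J
  obtain ⟨C, L⟩ := exists_link
  exact f12_of (hyp L)

end Cfsg.Agent.H752.JM
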