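import Cfsg.Agent.H752.JM.NotSub

/-!
# J₄: the fact `F12` of the 2-local geometry (helper752)

`f12_of` : `F12` from the structure of `N(E)` (`Frame`), the facts `F1`, `F5`, `F6`, and four properties of the groups
`X` (helper796).
-/

set_option autoImplicit false

open scoped Pointwise

namespace Cfsg.Agent.H752.JM

open Cfsg Cfsg.Agent.SporadicA.GolayBase Cfsg.Agent.SporadicA.OctadFix
open Cfsg.Agent.J4Type Cfsg.Agent.J4Type.CloseInst
open Cfsg.Agent.J4Type.FrameDefs (NE)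
open Cfsg.Agent.H857.WGrp Cfsg.Agent.H860.JM

variable {G : Type*} [Group G] {F : Frame G} {Γ : Geom G}

/-- the input -/
structure Hyp (Γ : Geom G) (F : Frame G) : Prop where
  A : ∀ u, Γ.A u ↔ IsConj F.z u
  Pt : ∀ P, Γ.Pt P ↔ ∃ g, P = cj g (F.E hex0)
  f1 : F1 Γ
  f5 : F5 Γ
  f6 : F6 Γ
  elX : ∀ X, Γ.Xc X → El X
  k1 : ∀ X P, Γ.Xc X → Γ.Pt P → Nat.card (P ⊓ X : Subgroup G) = 64 →
    X ≤ Subgroup.normalizer (P : Set G)
  k2 : ∀ X P, Γ.Xc X → Γ.Pt P → X ≤ Subgroup.normalizer (P : Set G) →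
    Nat.card (P ⊓ X : Subgroup G) = 64
  k3 : ∀ X X' P w, Γ.Xc X → Γ.Xc X' → Γ.Pt P → X ≤ Subgroup.normalizer (P : Set G) →
    X' ≤ Subgroup.normalizer (P : Set G) → w ∈ X → w ∈ X' → w ∉ P → X = X'
  k4 : ∀ O ∈ octads, ∀ n : NE F, (n : G) ∉ F.E hex0 → (n : G) * n = 1 → sg n ∈ fixOct O →
    ∃ X, Γ.Xc X ∧ (n : G) ∈ X ∧ WG F O ≤ X

theorem cj_inf (g : G) (P X : Subgroup G) : cj g (P ⊓ X) = cj g P ⊓ cj g X := by
  ext x
  rw [Subgroup.mem_inf, mem_cj, mem_cj, mem_cj, Subgroup.mem_inf]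

theorem cj_inv (g : G) (P : Subgroup G) : cj g (cj g⁻¹ P) = P := by
  rw [cj_cj, mul_inv_cancel, cj_eq_iff]
  exact Subgroup.one_mem _

theorem ncard_pair_le (a b : G) : ({a, b} : Set G).ncard ≤ 2 := by
  have h := Set.ncard_insert_le a ({b} : Set G)
  rwa [Set.ncard_singleton] at h

/-- two points have an intersection of order at most 8 -/
theorem card_inf_le (h5 : F5 Γ) (h6 : F6 Γ) {P P' : Subgroup G} (hP : Γ.Pt P) (hP' : Γ.Pt P')
    (hne : P ≠ P') : Nat.card (P ⊓ P' : Subgroup G) ≤ 8 := by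
  rcases h5 P P' hP hP' hne with h | ⟨z, -, h⟩ | h
  · rw [h, Subgroup.card_bot]; norm_num
  · have h1 : ((P ⊓ P' : Subgroup G) : Set G) = {1, z} := by
      ext x
      rw [SetLike.mem_coe, h, Set.mem_insert_iff, Set.mem_singleton_iff]
    have h2 : ((P ⊓ P' : Subgroup G) : Set G).ncard ≤ 2 := by
      rw [h1]; exact ncard_pair_le 1 z
    have h3 : Nat.card (P ⊓ P' : Subgroup G) = ((P ⊓ P' : Subgroup G) : Set G).ncard := rfl
    omega
  · rw [h6.card _ h]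

/-- two points through `v ≠ v'` and `w'` are equal if `v`, `v'` are in a third point not containing
`w'` -/
theorem eq_of_three (h5 : F5 Γ) (h6 : F6 Γ) {P P' P'' : Subgroup G} (hP : Γ.Pt P) (hP' : Γ.Pt P')
    (hP'' : Γ.Pt P'') {v v' w : G} (hv1 : v ≠ 1) (hv1' : v' ≠ 1) (hvv : v ≠ v') (hv : v ∈ P)
    (hv' : v' ∈ P) (hw : w ∉ P) (hvP' : v ∈ P') (hvP'' : v ∈ P'') (hvP2 : v' ∈ P') (hvP3 : v' ∈ P'')
    (hwP' : w ∈ P') (hwP'' : w ∈ P'') : P' = P'' := by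
  by_contra hne
  rcases h5 P' P'' hP' hP'' hne with h | ⟨z, -, h⟩ | h
  · have h1 : v ∈ (P' ⊓ P'' : Subgroup G) := ⟨hvP', hvP''⟩
    rw [h, Subgroup.mem_bot] at h1
    exact hv1 h1
  · have h1 := ((h v).1 ⟨hvP', hvP''⟩).resolve_left hv1
    have h2 := ((h v').1 ⟨hvP2, hvP3⟩).resolve_left hv1'
    exact hvv (h1.trans h2.symm)
  · exact hw (h6.le _ P h hP v v' hv1 hv1' hvv ⟨hvP', hvP''⟩ ⟨hvP2, hvP3⟩ hv hv' ⟨hwP', hwP''⟩)

theorem one_mem_Fs {P : Subgroup G} (w : G) : (1 : G) ∈ Fs Γ P w :=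
  ⟨P.one_mem, by rw [one_mul, mul_one], Or.inl rfl⟩

theorem twelve_E [Finite G] (H : Hyp Γ F) {w : G} (hw : KA Γ (F.E hex0) w) : ∃ X, Γ.Xc X ∧
    (∀ g : G, (∀ u, u ∈ Ws Γ (F.E hex0) w → g * u * g⁻¹ ∈ Ws Γ (F.E hex0) w) →
      g ∈ Subgroup.normalizer (X : Set G)) ∧
    ∀ P', Γ.Pt P' → 8 ≤ (Ws Γ (F.E hex0) w ∩ (P' : Set G)).ncard →
      Nat.card (P' ⊓ X : Subgroup G) = 64 := by
  classical
  set E := F.E hex0 with hE
  have hEPt : Γ.Pt E := (H.Pt E).2 ⟨1, (cj_eq_iff.2 (Subgroup.one_mem _)).symm⟩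
  have hww : w * w = 1 := (H.f1.A_inv w hw.act.A).2
  set n : NE F := ⟨w, hw.act.mem⟩ with hn
  have hnn : F.π n * F.π n = 1 := by
    rw [← map_mul, show n * n = 1 from Subtype.ext hww, map_one]
  have hn1 : F.π n ≠ 1 := fun h => hw.act.not_mem ((F.π_ker n).1 h)
  obtain ⟨O, hO, hmem, hfix, hFs⟩ := Fs_eq (Γ := Γ) H.A hnn hn1 hw.act.A hw.card
  have hFs' : ∀ x, x ∉ O → ∀ v, v ∈ Fs Γ E w ↔ ∃ y, y ∉ O ∧ v = dd n x y := hFs
  obtain ⟨x0, hx0⟩ := exists_notMem (T := O) (by have := octad_card hO; omega)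
  have hFW : ∀ v ∈ Fs Γ E w, v ∈ WG F O := by
    intro v hv
    obtain ⟨y, hy, rfl⟩ := (hFs' x0 hx0 v).1 hv
    exact Fs_le_WG hO hmem hnn hn1 hfix hx0 hy
  obtain ⟨X, hX, hwX, hWX⟩ := H.k4 O hO n hw.act.not_mem hww hfix
  have hwX' : w ∈ X := hwX
  have hXel := H.elX X hX
  have hFX : ∀ v ∈ Fs Γ E w, v ∈ X := fun v hv => hWX (hFW v hv)
  have hWs : ∀ u ∈ Ws Γ E w, u ∈ X := by
    rintro u (h | h)
    · exact hFX u h
    · have h1 := X.mul_mem hwX' (hFX _ h)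
      rwa [← mul_assoc, hww, one_mul] at h1
  have hWsE : ∀ u ∈ Ws Γ E w, u ∈ E → u ∈ Fs Γ E w := by
    rintro u (h | h) hu
    · exact h
    · exact absurd ((E.mul_mem_cancel_right hu).1 h.1) hw.act.not_mem
  have hWsE' : ∀ u ∈ Ws Γ E w, u ∉ E → w * u ∈ Fs Γ E w := by
    rintro u (h | h) hu
    · exact absurd h.1 hu
    · exact h
  have hwWs : w ∈ Ws Γ E w := Or.inr (by rw [hww]; exact one_mem_Fs w)
  have hFWs : Fs Γ E w ⊆ Ws Γ E w := fun v hv => Or.inl hv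
  -- `X` normalizes `E`
  have hXE : X ≤ Subgroup.normalizer (E : Set G) := by
    intro x hx
    obtain ⟨p, hp, q, hq, hpq⟩ := Finset.one_lt_card.1
      (show 1 < O.card by rw [octad_card hO]; norm_num)
    exact DuadCent.duad_cent F hpq (hXel.comm x hx _ (hWX (duad_mem_WG hp hq hpq)))
  have h64 : Nat.card (E ⊓ X : Subgroup G) = 64 := H.k2 X E hX hEPt hXE
  -- (3)
  have h3 : ∀ P', Γ.Pt P' → 8 ≤ (Ws Γ E w ∩ (P' : Set G)).ncard →
      Nat.card (P' ⊓ X : Subgroup G) = 64 := by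
    intro P' hP' h8
    by_cases hPE : P' = E
    · rw [hPE]; exact h64
    have hle := card_inf_le H.f5 H.f6 hEPt hP' (Ne.symm hPE)
    have hns : ¬ (∀ v ∈ Fs Γ E w, v ∈ P') := by
      intro hsub
      obtain ⟨g, rfl⟩ := (H.Pt P').1 hP'
      exact not_sub hnn hO hmem hFs' hw.card hle hsub
    -- an element outside `E`
    obtain ⟨w', hw', hwE'⟩ : ∃ w' ∈ Ws Γ E w ∩ (P' : Set G), w' ∉ E := by
      by_contra hno
      push Not at hno
      apply hns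
      have h1 : Ws Γ E w ∩ (P' : Set G) ⊆ Fs Γ E w := fun u hu => hWsE u hu.1 (hno u hu)
      have h2 : Ws Γ E w ∩ (P' : Set G) = Fs Γ E w :=
        Set.eq_of_subset_of_ncard_le h1 (by rw [hw.card]; exact h8) (Set.toFinite _)
      intro v hv
      rw [← h2] at hv
      exact hv.2
    have hsplit : Ws Γ E w ∩ (P' : Set G) ⊆ (Fs Γ E w ∩ (P' : Set G)) ∪
        (fun v => w' * v) '' (Fs Γ E w ∩ (P' : Set G)) := by
      intro u hu
      by_cases huE : u ∈ E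
      · exact Or.inl ⟨hWsE u hu.1 huE, hu.2⟩
      · right
        have hsq : w' * w' = 1 := hXel.sq w' (hWs w' hw'.1)
        refine ⟨w' * u, ⟨?_, P'.mul_mem hw'.2 hu.2⟩, ?_⟩
        · have h1 := hw.mul _ (hWsE' w' hw'.1 hwE') _ (hWsE' u hu.1 huE)
          have h2 : w * w' * (w * u) = w' * u := by
            rw [hXel.comm w hwX' w' (hWs w' hw'.1), mul_assoc, ← mul_assoc w w u, hww, one_mul]
          rwa [h2] at h1
        · show w' * (w' * u) = u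
          rw [← mul_assoc, hsq, one_mul]
    have h4 : 4 ≤ (Fs Γ E w ∩ (P' : Set G)).ncard := by
      have h1 := Set.ncard_le_ncard hsplit (Set.toFinite _)
      have h2 := Set.ncard_union_le (Fs Γ E w ∩ (P' : Set G))
        ((fun v => w' * v) '' (Fs Γ E w ∩ (P' : Set G)))
      have h3 := Set.ncard_image_le (f := fun v => w' * v)
        (Set.toFinite (Fs Γ E w ∩ (P' : Set G)))
      omega
    obtain ⟨v, hv, hv1⟩ := Set.exists_ne_of_one_lt_ncard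
      (show 1 < (Fs Γ E w ∩ (P' : Set G)).ncard by omega) 1
    obtain ⟨v', hv', hv1'⟩ : ∃ v' ∈ Fs Γ E w ∩ (P' : Set G), v' ∉ ({1, v} : Set G) := by
      by_contra hno
      push Not at hno
      have h1 := Set.ncard_le_ncard (fun u hu => hno u hu : Fs Γ E w ∩ (P' : Set G) ⊆ {1, v})
        (Set.toFinite _)
      have h2 := ncard_pair_le 1 v
      omega
    rw [Set.mem_insert_iff, Set.mem_singleton_iff, not_or] at hv1'
    -- `X` normalizes `P'`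
    apply H.k2 X P' hX hP'
    intro x hx
    rw [← cj_eq_iff]
    have hc : ∀ y, y ∈ X → y ∈ P' → y ∈ cj x P' := by
      intro y hy hyP
      rw [mem_cj]
      have h1 : x⁻¹ * y * x = y := by
        rw [mul_assoc, hXel.comm y hy x hx, inv_mul_cancel_left]
      rwa [h1]
    exact (eq_of_three H.f5 H.f6 hEPt hP' (H.f1.Pt_conj x P' hP') hv1 hv1'.1 (Ne.symm hv1'.2)
      hv.1.1 hv'.1.1 hwE' hv.2 (hc v (hFX v hv.1) hv.2) hv'.2 (hc v' (hFX v' hv'.1) hv'.2)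
      hw'.2 (hc w' (hWs w' hw'.1) hw'.2)).symm
  refine ⟨X, hX, fun g hg => ?_, h3⟩
  -- (4)
  have hinv : ∀ u ∈ Ws Γ E w, g⁻¹ * u * g ∈ Ws Γ E w := by
    have h1 : (fun u => g * u * g⁻¹) '' Ws Γ E w = Ws Γ E w := by
      apply Set.eq_of_subset_of_ncard_le
      · rintro _ ⟨u, hu, rfl⟩
        exact hg u hu
      · rw [Set.ncard_image_of_injective]
        intro a b h
        exact mul_left_cancel (mul_right_cancel h)
      · exact Set.toFinite _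
    intro u hu
    rw [← h1] at hu
    obtain ⟨u', hu', rfl⟩ := hu
    have h2 : g⁻¹ * (g * u' * g⁻¹) * g = u' := by group
    show g⁻¹ * (g * u' * g⁻¹) * g ∈ _
    rw [h2]
    exact hu'
  have hPg : Γ.Pt (cj g⁻¹ E) := H.f1.Pt_conj _ _ hEPt
  have h5 : 8 ≤ (Ws Γ E w ∩ (cj g⁻¹ E : Set G)).ncard := by
    have h1 : (fun u => g⁻¹ * u * g) '' Fs Γ E w ⊆ Ws Γ E w ∩ (cj g⁻¹ E : Set G) := by
      rintro _ ⟨u, hu, rfl⟩
      refine ⟨hinv u (hFWs hu), mem_cj.2 ?_⟩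
      have h2 : g⁻¹⁻¹ * (g⁻¹ * u * g) * g⁻¹ = u := by group
      show g⁻¹⁻¹ * (g⁻¹ * u * g) * g⁻¹ ∈ E
      rw [h2]
      exact hu.1
    have h2 := Set.ncard_le_ncard h1 (Set.toFinite _)
    rw [Set.ncard_image_of_injective _ (fun a b h => mul_left_cancel (mul_right_cancel h)),
      show (Fs Γ E w).ncard = 8 from hw.card] at h2
    exact h2
  have h6 := h3 _ hPg h5
  have h7 : Nat.card (E ⊓ cj g X : Subgroup G) = 64 := by
    rw [← card_cj g, cj_inf, cj_inv] at h6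
    exact h6
  have hX' := H.f1.Xc_conj g X hX
  have h8 := H.k1 _ E hX' hEPt h7
  have h9 : X = cj g X := by
    apply H.k3 X (cj g X) E w hX hX' hEPt hXE h8 hwX' _ hw.act.not_mem
    rw [mem_cj]
    exact hWs _ (hinv w hwWs)
  exact cj_eq_iff.1 h9.symm

/-! ### transport -/

theorem mem_Fs_cj (h1 : F1 Γ) {g : G} {P : Subgroup G} {w v : G} :
    v ∈ Fs Γ (cj g P) w ↔ g⁻¹ * v * g ∈ Fs Γ P (g⁻¹ * w * g) := by
  have hA : ∀ u, Γ.A (g⁻¹ * u * g) ↔ Γ.A u := by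
    intro u
    constructor
    · intro h
      have h2 := h1.A_conj g _ h
      have h3 : g * (g⁻¹ * u * g) * g⁻¹ = u := by group
      rwa [h3] at h2
    · intro h
      have h2 := h1.A_conj g⁻¹ _ h
      rwa [inv_inv] at h2
  have e1 : g⁻¹ * v * g * (g⁻¹ * w * g) = g⁻¹ * (v * w) * g := by group
  have e2 : g⁻¹ * w * g * (g⁻¹ * v * g) = g⁻¹ * (w * v) * g := by group
  show (v ∈ cj g P ∧ v * w = w * v ∧ (v = 1 ∨ (Γ.A v ∧ Γ.A (v * w)))) ↔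
    (g⁻¹ * v * g ∈ P ∧ g⁻¹ * v * g * (g⁻¹ * w * g) = g⁻¹ * w * g * (g⁻¹ * v * g) ∧
      (g⁻¹ * v * g = 1 ∨ (Γ.A (g⁻¹ * v * g) ∧ Γ.A (g⁻¹ * v * g * (g⁻¹ * w * g)))))
  rw [e1, e2, hA, hA, mem_cj]
  have e3 : g⁻¹ * (v * w) * g = g⁻¹ * (w * v) * g ↔ v * w = w * v :=
    ⟨fun h => mul_left_cancel (mul_right_cancel h), fun h => by rw [h]⟩
  have e4 : g⁻¹ * v * g = 1 ↔ v = 1 := by
    constructor
    · intro h
      have h2 : v = g * (g⁻¹ * v * g) * g⁻¹ := by group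
      rw [h2, h]; group
    · rintro rfl; group
  rw [e3, e4]

theorem mem_Ws_cj (h1 : F1 Γ) {g : G} {P : Subgroup G} {w v : G} :
    v ∈ Ws Γ (cj g P) w ↔ g⁻¹ * v * g ∈ Ws Γ P (g⁻¹ * w * g) := by
  have e : g⁻¹ * (w * v) * g = g⁻¹ * w * g * (g⁻¹ * v * g) := by group
  show (v ∈ Fs Γ (cj g P) w ∨ w * v ∈ Fs Γ (cj g P) w) ↔ (g⁻¹ * v * g ∈ Fs Γ P (g⁻¹ * w * g) ∨
    g⁻¹ * w * g * (g⁻¹ * v * g) ∈ Fs Γ P (g⁻¹ * w * g))
  rw [mem_Fs_cj h1, mem_Fs_cj h1, e]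

theorem cc (g x : G) : g⁻¹ * (g * x * g⁻¹) * g = x := by group
theorem cc' (g x : G) : g * (g⁻¹ * x * g) * g⁻¹ = x := by group

theorem KA_cj (h1 : F1 Γ) {g : G} {P : Subgroup G} {w : G} (h : KA Γ (cj g P) w) :
    KA Γ P (g⁻¹ * w * g) := by
  have hmem : ∀ v, v ∈ Fs Γ P (g⁻¹ * w * g) → g * v * g⁻¹ ∈ Fs Γ (cj g P) w := by
    intro v hv
    rw [mem_Fs_cj h1, cc]
    exact hv
  refine ⟨⟨?_, ?_, ?_⟩, ?_, ?_, ?_, ?_⟩
  · have h2 := h.act.mem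
    rw [normalizer_cj, mem_cj] at h2
    exact h2
  · intro h2
    exact h.act.not_mem (mem_cj.2 h2)
  · have h2 := h1.A_conj g⁻¹ _ h.act.A
    rwa [inv_inv] at h2
  · rw [← h.card]
    have h2 : Fs Γ (cj g P) w = (fun x => g * x * g⁻¹) '' Fs Γ P (g⁻¹ * w * g) := by
      ext v
      constructor
      · intro hv
        exact ⟨_, (mem_Fs_cj h1).1 hv, cc' g v⟩
      · rintro ⟨v, hv, rfl⟩
        exact hmem v hv
    rw [h2, Set.ncard_image_of_injective _ (fun a b h => mul_left_cancel (mul_right_cancel h))]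
  · intro v hv
    obtain ⟨D, hD, hD1, hD2⟩ := h.tyA _ (hmem v hv)
    refine ⟨cj g⁻¹ D, h1.Ln_conj _ _ hD, mem_cj.2 ?_, mem_cj.2 ?_⟩
    · rw [inv_inv]; exact hD1
    · rw [inv_inv, cc']; exact hD2
  · intro v hv v' hv'
    obtain ⟨P', hP', h2, h3, h4⟩ := h.pt _ (hmem v hv) _ (hmem v' hv')
    refine ⟨cj g⁻¹ P', h1.Pt_conj _ _ hP', mem_cj.2 ?_, mem_cj.2 ?_, mem_cj.2 ?_⟩
    · rw [inv_inv]; exact h2
    · rw [inv_inv]; exact h3
    · rw [inv_inv, cc']; exact h4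
  · intro v hv v' hv'
    have h2 := (mem_Fs_cj h1).1 (h.mul _ (hmem v hv) _ (hmem v' hv'))
    have h3 : g⁻¹ * (g * v * g⁻¹ * (g * v' * g⁻¹)) * g = v * v' := by group
    rwa [h3] at h2

/-- **the fact F12** -/
theorem f12_of [Finite G] (H : Hyp Γ F) : F12 Γ := by
  intro P w hP hK
  obtain ⟨g, rfl⟩ := (H.Pt P).1 hP
  obtain ⟨X, hX, h2, h3⟩ := twelve_E H (KA_cj H.f1 hK)
  refine ⟨cj g X, H.f1.Xc_conj _ _ hX, fun k hk => ?_, fun P' hP' h8 => ?_⟩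
  · rw [normalizer_cj, mem_cj]
    apply h2
    intro u hu
    have h4 := hk (g * u * g⁻¹) ((mem_Ws_cj H.f1).2 (by rw [cc]; exact hu))
    rw [mem_Ws_cj H.f1] at h4
    have h5 : g⁻¹ * (k * (g * u * g⁻¹) * k⁻¹) * g = g⁻¹ * k * g * u * (g⁻¹ * k * g)⁻¹ := by group
    rwa [h5] at h4
  · have h4 := h3 (cj g⁻¹ P') (H.f1.Pt_conj _ _ hP') (by
      refine h8.trans ?_
      have h5 : (fun x => g⁻¹ * x * g) '' (Ws Γ (cj g (F.E hex0)) w ∩ (P' : Set G)) ⊆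
          Ws Γ (F.E hex0) (g⁻¹ * w * g) ∩ (cj g⁻¹ P' : Set G) := by
        rintro _ ⟨u, hu, rfl⟩
        refine ⟨(mem_Ws_cj H.f1).1 hu.1, mem_cj.2 ?_⟩
        show g⁻¹⁻¹ * (g⁻¹ * u * g) * g⁻¹ ∈ P'
        rw [inv_inv, cc']
        exact hu.2
      have h6 := Set.ncard_le_ncard h5 (Set.toFinite _)
      rwa [Set.ncard_image_of_injective _
        (fun a b h => mul_left_cancel (mul_right_cancel h))] at h6)
    rw [← card_cj g, cj_inf, cj_inv] at h4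
    exact h4

end Cfsg.Agent.H752.JM
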